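import Cfsg.Agent.H916.HT.OwnA
import Cfsg.Agent.H112.HT.Ind
import Mathlib

/-!
# S4933, `PSL₂(q)` in its own characteristic, outer `p`-automorphisms: the characters of degree `q + 1` (helper916)
-/

set_option autoImplicit false
set_option linter.unusedSectionVars false

open scoped ComplexConjugate

namespace Cfsg.Agent.H916.HT.Own

open Cfsg Matrix
open Cfsg.Agent.Blocks.Local
open Cfsg.Agent.ClassicalGeometry.AutPSL.Root
open Cfsg.Agent.ClassicalGeometry.AutPSL.Auto
open Cfsg.Agent.ClassicalGeometry.AutPSL.Main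
open Cfsg.Agent.H454.Reg.Two
open Cfsg.Agent.OddOrderCharacters

universe u

/-- a normal `p`-subgroup lies in every subgroup of index prime to `p` -/
theorem normal_le {G : Type u} [Group G] [Finite G] {p : ℕ} [Fact p.Prime] {N : Subgroup G} [N.Normal]
    (hN : IsPGroup p N) {H : Subgroup G} (hH : ¬ p ∣ H.index) : N ≤ H := by
  obtain ⟨P⟩ : Nonempty (Sylow p H) := inferInstance
  have h1 : ¬ p ∣ ((P : Subgroup H).map H.subtype).index := by
    rw [Subgroup.index_map_subtype]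
    exact fun h => ((Fact.out : p.Prime).dvd_mul.1 h).elim (P.not_dvd_index) hH
  have h2 : IsPGroup p ((P : Subgroup H).map H.subtype) := P.2.map _
  have h3 := hN.le_sylow_of_normal (h2.toSylow h1)
  exact h3.trans (Subgroup.map_subtype_le _)

/-- **linear characters in the principal block**: `C_G(U) ≤ U` for the kernel `U`, a `p`-group -/
theorem lin_mem {G : Type u} [Group G] [Finite G] {p : ℕ} [Fact p.Prime] {M : Ideal AlgInt} (hM : IsPModular p M)
    {N : Subgroup G} [N.Normal] (hN : IsPGroup p N) (hC : ∀ g : G, (∀ x ∈ N, x * g = g * x) → g ∈ N) (l : G →* ℂˣ)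
    (hl : ∀ x ∈ N, l x = 1) : H112.HT.linIrr l ∈ principalBlock M G := by
  have hMp := isPrime_of_isPModular hM
  intro g
  have hl1 : (H112.HT.linIrr l : G → ℂ) 1 = 1 := by
    rw [H112.HT.linIrr_apply, map_one, Units.val_one]
  have h0 : centralChar (fun _ : G => (1 : ℂ)) g - centralChar (H112.HT.linIrr l : G → ℂ) g =
      ((Subgroup.centralizer ({g} : Set G)).index : ℂ) * (1 - (l g : ℂ)) := by
    unfold centralChar
    rw [hl1, H112.HT.linIrr_apply]
    ring
  rw [h0]
  by_cases hp : p ∣ (Subgroup.centralizer ({g} : Set G)).index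
  · refine memLocalIdeal_mul_right ((memLocalIdeal_natCast_iff hM _).2 hp) (memLocalRing_sub memLocalRing_one ?_)
    apply memLocalRing_of_isIntegral
    have h1 : (l g : ℂ) ^ Nat.card G = 1 := by
      rw [← Units.val_pow_eq_pow_val, ← map_pow, pow_card_eq_one', map_one, Units.val_one]
    exact IsIntegral.of_pow Nat.card_pos (by rw [h1]; exact isIntegral_one)
  · have h1 : g ∈ N := by
      apply hC
      intro x hx
      exact (Subgroup.mem_centralizer_singleton_iff.1 (normal_le hN hp hx))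
    rw [hl g h1, Units.val_one, sub_self, mul_zero]
    exact memLocalIdeal_zero

/-- inner products of induced linear characters -/
theorem ind_ne {L : Type u} [Group L] [Fintype L] (A : Subgroup L) (ξ η : A →* ℂˣ)
    (hirr : IsIrrCharacter L (indFun A (fun x => (ξ x : ℂ))))
    (h : ∀ g : L, ∃ a b : A, (b : L) = g⁻¹ * a * g ∧ ξ a ≠ η b) :
    indFun A (fun x => (ξ x : ℂ)) ≠ indFun A (fun x => (η x : ℂ)) := by
  classical
  intro heq
  have h1 := Characters.Core.classInner_irr_self hirr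
  rw [show indFun A (fun x => (ξ x : ℂ)) = indFun A (fun x => (ξ x : ℂ)) from rfl] at h1
  have h2 : classInner (indFun A (fun x => (ξ x : ℂ))) (indFun A (fun x => (η x : ℂ))) = 1 := by
    rw [← heq]
    exact h1
  rw [S0150.classInner_indFun A _ _ (fun g x => S0150.indFun_isClassFunction A _ g x)] at h2
  have h2' : (Nat.card A : ℂ)⁻¹ * ∑ a : A, (ξ a : ℂ) * conj (indFun A (fun x => (η x : ℂ)) a) = 1 := h2
  have key : ∀ g : L, ∑ a : A, (ξ a : ℂ) *
      conj (extendByZero A (fun x => (η x : ℂ)) (g⁻¹ * a * g)) = 0 := by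
    intro g
    obtain ⟨a₀, b₀, hb₀, hne⟩ := h g
    set S := ∑ a : A, (ξ a : ℂ) * conj (extendByZero A (fun x => (η x : ℂ)) (g⁻¹ * a * g)) with hS
    have h1 : S = (ξ a₀ : ℂ) * conj (η b₀ : ℂ) * S := by
      calc S = ∑ a : A, (ξ (a₀ * a) : ℂ) *
            conj (extendByZero A (fun x => (η x : ℂ)) (g⁻¹ * (a₀ * a : A) * g)) :=
            (Fintype.sum_equiv (Equiv.mulLeft a₀) _ _ (fun a => rfl)).symm
        _ = ∑ a : A, (ξ a₀ : ℂ) * conj (η b₀ : ℂ) * ((ξ a : ℂ) *
            conj (extendByZero A (fun x => (η x : ℂ)) (g⁻¹ * a * g))) := by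
            refine Finset.sum_congr rfl fun a _ => ?_
            have h2 : g⁻¹ * ((a₀ * a : A) : L) * g = (b₀ : L) * (g⁻¹ * a * g) := by
              rw [hb₀, Subgroup.coe_mul]; group
            rw [h2, PF9.Mackey.extendByZero_mul, map_mul, map_mul, Units.val_mul]
            ring
        _ = _ := by rw [← Finset.mul_sum]
    by_contra hS0
    apply hne
    have h3 : (ξ a₀ : ℂ) * conj (η b₀ : ℂ) = 1 := by
      have : ((ξ a₀ : ℂ) * conj (η b₀ : ℂ) - 1) * S = 0 := by
        rw [sub_mul, one_mul, ← h1, sub_self]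
      rcases mul_eq_zero.mp this with h4 | h4
      · exact sub_eq_zero.mp h4
      · exact absurd h4 hS0
    have h5 := PF9.Mackey.mul_conj_lin η b₀
    apply Units.ext
    have h6 : conj (η b₀ : ℂ) ≠ 0 := by
      intro h0; rw [h0, mul_zero] at h5; exact zero_ne_one h5
    exact mul_right_cancel₀ h6 (h3.trans h5.symm)
  have h7 : ∑ a : A, (ξ a : ℂ) * conj (indFun A (fun x => (η x : ℂ)) a) = 0 := by
    calc ∑ a : A, (ξ a : ℂ) * conj (indFun A (fun x => (η x : ℂ)) a)
        = ∑ a : A, ∑ g : L, (conj (Nat.card A : ℂ)⁻¹) * ((ξ a : ℂ) *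
            conj (extendByZero A (fun x => (η x : ℂ)) (g⁻¹ * a * g))) := by
          refine Finset.sum_congr rfl fun a _ => ?_
          rw [S0150.indFun_apply, map_mul, map_sum, Finset.mul_sum, Finset.mul_sum]
          refine Finset.sum_congr rfl fun g _ => ?_
          ring
      _ = ∑ g : L, (conj (Nat.card A : ℂ)⁻¹) * ∑ a : A, ((ξ a : ℂ) *
            conj (extendByZero A (fun x => (η x : ℂ)) (g⁻¹ * a * g))) := by
          rw [Finset.sum_comm]
          refine Finset.sum_congr rfl fun g _ => ?_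
          rw [Finset.mul_sum]
      _ = 0 := by
          refine Finset.sum_eq_zero fun g _ => ?_
          rw [key g, mul_zero]
  rw [h7, mul_zero] at h2'
  exact zero_ne_one h2'

/-- the function induced from a twisted one -/
theorem ind_tw {G : Type u} [Group G] [Fintype G] (H : Subgroup G) (f f₂ : H → ℂ) (φ : MulAut G)
    (hc : ∀ h : H, ∃ h' : H, φ (h : G) = h' ∧ f h' = f₂ h)
    (g : G) : indFun H f (φ g) = indFun H f₂ g := by
  classical
  have hiff : ∀ x : G, φ x ∈ H ↔ x ∈ H := by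
    have hf : Set.MapsTo φ (H : Set G) (H : Set G) := fun x hx => by
      obtain ⟨h', h1, -⟩ := hc ⟨x, hx⟩
      have h2 : φ x = h' := h1
      rw [h2]
      exact h'.2
    have hfin : (H : Set G).Finite := Set.toFinite _
    have hs : φ '' (H : Set G) = (H : Set G) :=
      Set.eq_of_subset_of_ncard_le hf.image_subset
        (Set.ncard_image_of_injective _ φ.injective).ge hfin
    intro x
    refine ⟨fun h => ?_, fun h => hf h⟩
    have h' : φ x ∈ φ '' (H : Set G) := by
      rw [hs]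
      exact h
    obtain ⟨y, hy, hyx⟩ := h'
    rw [← φ.injective hyx]
    exact hy
  have key : ∀ x : G, extendByZero H f (φ x) = extendByZero H f₂ x := by
    intro x
    by_cases hx : x ∈ H
    · obtain ⟨h', h1, h2⟩ := hc ⟨x, hx⟩
      have h3 : φ x = h' := h1
      rw [h3]
      have e1 := S0150.extendByZero_coe H f h'
      have e2 := S0150.extendByZero_coe H f₂ ⟨x, hx⟩
      rw [e1, h2]
      exact e2.symm
    · have hx' : φ x ∉ H := fun h => hx ((hiff x).1 h)
      rw [show extendByZero H f (φ x) = 0 from ?_, show extendByZero H f₂ x = 0 from ?_]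
      · unfold extendByZero
        rw [Function.extend_apply']
        · rfl
        · rintro ⟨a, ha⟩
          exact hx (ha ▸ a.2)
      · unfold extendByZero
        rw [Function.extend_apply']
        · rfl
        · rintro ⟨a, ha⟩
          exact hx' (ha ▸ a.2)
  rw [S0150.indFun_apply, S0150.indFun_apply]
  congr 1
  refine (Fintype.sum_equiv φ.toEquiv _ _ fun x => ?_).symm
  rw [← key (x⁻¹ * g * x)]
  congr 1
  show φ (x⁻¹ * g * x) = (φ x)⁻¹ * φ g * (φ x)
  rw [map_mul, map_mul, map_inv]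

variable {F : Type u} [Field F] [Fintype F]

/-- the linear character of the Borel subgroup -/
noncomputable def ll (θ : Fˣ →* ℂˣ) : BB F →* ℂˣ := θ.comp (dd F)

theorem ll_apply (θ : Fˣ →* ℂˣ) (x : BB F) : ll θ x = θ (dd F x) := rfl

/-- the character of degree `q + 1` -/
noncomputable def psi [Fintype (ProjectiveSpecialLinearGroup (Fin 2) F)] (θ : Fˣ →* ℂˣ) :
    ProjectiveSpecialLinearGroup (Fin 2) F → ℂ := indFun (BB F) (fun x => (ll θ x : ℂ))

/-- the elements of the kernel -/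
theorem ker_form {x : BB F} (h : dd F x = 1) : ∃ t : F, (x : ProjectiveSpecialLinearGroup (Fin 2) F) = pr (ut 1 t) := by
  obtain ⟨s, k, rfl⟩ := exists_ut x
  rw [dd_ut] at h
  refine ⟨((s⁻¹ : Fˣ) : F) * k, ?_⟩
  symm
  refine pr_eq_of_smul (c := (s : F)) ?_
  show (ut s k).1 = (s : F) • (ut 1 _).1
  rw [coe_ut, coe_ut]
  have h1 : s⁻¹ = s := by
    rw [inv_eq_iff_mul_eq_one, ← pow_two, h]
  have h2 : (s : F) * s = 1 := by
    rw [← Units.val_mul, ← pow_two, h, Units.val_one]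
  ext i j
  fin_cases i <;> fin_cases j
  · simp
  · show k = (s : F) * (((s⁻¹ : Fˣ) : F) * k)
    rw [← mul_assoc, Units.mul_inv, one_mul]
  · simp
  · show ((s⁻¹ : Fˣ) : F) = (s : F) * (((1 : Fˣ)⁻¹ : Fˣ) : F)
    rw [h1]
    simp

theorem ut_one_pow (t : F) (n : ℕ) : ut 1 t ^ n = ut 1 ((n : F) * t) := by
  induction n with
  | zero =>
    rw [pow_zero, Nat.cast_zero, zero_mul]
    apply Subtype.ext
    show (1 : Matrix (Fin 2) (Fin 2) F) = _
    rw [coe_ut]
    ext i j
    fin_cases i <;> fin_cases j <;> simp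
  | succ n ih =>
    rw [pow_succ, ih, ut_mul]
    congr 1
    · simp
    · push_cast
      simp
      ring

theorem ker_pgroup {p : ℕ} [Fact p.Prime] [CharP F p] : IsPGroup p (dd F).ker := by
  rintro ⟨x, hx⟩
  obtain ⟨t, ht⟩ := ker_form hx
  refine ⟨1, ?_⟩
  apply Subtype.ext
  apply Subtype.ext
  show (x : ProjectiveSpecialLinearGroup (Fin 2) F) ^ p ^ 1 = 1
  rw [ht, ← map_pow, pow_one, ut_one_pow, CharP.cast_eq_zero, zero_mul, ← map_one pr]
  congr 1
  have h := ut_one_pow (F := F) 0 0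
  rw [pow_zero, mul_zero] at h
  exact h.symm

theorem ker_cent {g : BB F} (h : ∀ x ∈ (dd F).ker, x * g = g * x) : g ∈ (dd F).ker := by
  obtain ⟨s, k, rfl⟩ := exists_ut g
  rw [MonoidHom.mem_ker, dd_ut]
  have h1 := h ⟨pr (ut 1 1), pr_mem_BB.2 (ut_mem 1 1)⟩ (by rw [MonoidHom.mem_ker, dd_ut, one_pow])
  have h2 : pr (ut 1 1 * ut s k) = pr (ut s k * ut 1 1) := congrArg Subtype.val h1
  rw [ut_mul, ut_mul] at h2
  obtain ⟨c, hc⟩ := exists_smul_of_pr_eq h2
  have h3 : (ut (s * 1) ((s : F) * 1 + k * ((1⁻¹ : Fˣ) : F))).1 =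
    c • (ut (1 * s) (((1 : Fˣ) : F) * k + 1 * ((s⁻¹ : Fˣ) : F))).1 := hc
  rw [coe_ut, coe_ut] at h3
  have e0 := congrFun (congrFun h3 0) 0
  have e1 := congrFun (congrFun h3 0) 1
  simp only [mul_one, one_mul, Matrix.smul_apply, Matrix.of_apply, Matrix.cons_val', Matrix.cons_val_zero,
    Matrix.cons_val_one, smul_eq_mul, inv_one, Units.val_one, Matrix.cons_val_fin_one] at e0 e1
  have hc1 : c = 1 := by
    have : (c - 1) * (s : F) = 0 := by linear_combination -e0
    rcases mul_eq_zero.1 this with h4 | h4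
    · exact sub_eq_zero.1 h4
    · exact absurd h4 s.ne_zero
  rw [hc1] at e1
  have h5 : (s : F) = ((s⁻¹ : Fˣ) : F) := by linear_combination e1
  have h6 : s = s⁻¹ := Units.ext h5
  rw [pow_two]
  nth_rewrite 2 [h6]
  exact mul_inv_cancel s

theorem ll_mem {p : ℕ} [Fact p.Prime] [CharP F p] {M : Ideal AlgInt} (hM : IsPModular p M) (θ : Fˣ →* ℂˣ) :
    H112.HT.linIrr (ll θ) ∈ principalBlock M (BB F) := by
  have : Finite (ProjectiveSpecialLinearGroup (Fin 2) F) := inferInstance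
  refine lin_mem hM (N := (dd F).ker) ker_pgroup (fun g hg => ker_cent hg) (ll θ) fun x hx => ?_
  rw [ll_apply, MonoidHom.mem_ker.1 hx, map_one]

variable [Fintype (ProjectiveSpecialLinearGroup (Fin 2) F)]

theorem irr_psi {θ : Fˣ →* ℂˣ} (hθ : Function.Injective θ) {s : Fˣ} (hs : (s : F) ^ 4 ≠ 1) :
    IsIrrCharacter _ (psi θ) := by
  refine PF9.MackeyIrr.isIrr_ind _ _ fun g hg => ?_
  by_contra hgn
  obtain ⟨k, k', h⟩ := pairs hgn s
  have h1 := hg ⟨pr (ut s⁻¹ k'), pr_mem_BB.2 (ut_mem _ _)⟩ ⟨pr (ut s k), pr_mem_BB.2 (ut_mem _ _)⟩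
    (by
      show pr (ut s k) = g * pr (ut s⁻¹ k') * g⁻¹
      rw [h]
      group)
  rw [ll_apply, ll_apply, dd_ut, dd_ut] at h1
  have h2 := hθ h1
  apply hs
  rw [← Units.val_pow_eq_pow_val, ← Units.val_one]
  congr 1
  calc s ^ 4 = s ^ 2 * s ^ 2 := by rw [← pow_add]
    _ = s⁻¹ ^ 2 * s ^ 2 := by rw [h2]
    _ = 1 := by group

theorem psi_mem {p : ℕ} [Fact p.Prime] [CharP F p] {M : Ideal AlgInt} (hM : IsPModular p M) {θ : Fˣ →* ℂˣ}
    (hirr : IsIrrCharacter _ (psi θ)) :
    (⟨_, hirr⟩ : IrrCharacter _) ∈ principalBlock M (ProjectiveSpecialLinearGroup (Fin 2) F) := by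
  classical
  have := Fintype.ofFinite (BB F)
  obtain ⟨χ, hχ, h⟩ := Cfsg.Agent.H892.EP.exists_over hM (BB F) (H112.HT.linIrr (ll θ)) (ll_mem hM θ)
  have h' : classInner (indFun (BB F) (fun h : BB F => (ll θ h : ℂ))) (χ : ProjectiveSpecialLinearGroup (Fin 2) F → ℂ) ≠ 0 := by
    rw [Cfsg.Agent.OddOrderCharacters.IndRes.classInner_indFun_left (BB F) _
      (Cfsg.Agent.Characters.Core.isIrr_isClassFunction χ.2)]
    intro h0
    apply h
    have h1 := Cfsg.Agent.Characters.Core.classInner_conj_symm (fun h : BB F => (ll θ h : ℂ))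
      (fun h : BB F => (χ : ProjectiveSpecialLinearGroup (Fin 2) F → ℂ) h)
    rw [show Cfsg.Agent.OddOrderCharacters.IndRes.res (BB F) (χ : ProjectiveSpecialLinearGroup (Fin 2) F → ℂ) = fun h : BB F => (χ : ProjectiveSpecialLinearGroup (Fin 2) F → ℂ) h from rfl] at h0
    rw [h0, map_zero] at h1
    exact h1.symm
  have h1 : (⟨_, hirr⟩ : IrrCharacter _) = χ := by
    by_contra hne
    exact h' (Cfsg.Agent.Characters.Core.classInner_irr_ne hirr χ.2 fun h2 => hne (Subtype.ext h2))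
  rw [h1]
  exact hχ

theorem psi_degree {p : ℕ} [Fact p.Prime] [CharP F p] (θ : Fˣ →* ℂˣ) : ¬ p ∣ charDegree (psi θ) := by
  have h0 : charDegree (psi θ) = (BB F).index := by
    unfold charDegree
    have h1 : psi θ 1 = ((BB F).index : ℂ) := by
      unfold psi
      rw [Cfsg.Agent.OddOrderCharacters.IndRes.indFun_apply_one, map_one, Units.val_one, mul_one]
    rw [h1, Complex.natCast_re, Nat.floor_natCast]
  rw [h0]
  obtain ⟨S, hS⟩ := Cfsg.Agent.ClassicalGeometry.AutPSL.SylowU.exists_sylow (F := F) 2 p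
  intro h
  refine S.not_dvd_index (h.trans (Subgroup.index_dvd_of_le ?_))
  rw [hS]
  refine Subgroup.map_mono fun g hg => ?_
  have h1 := (Cfsg.Agent.ClassicalGeometry.AutPSL.SylowU.mem_upper.1 hg) 1 0 (Fin.zero_le _)
  exact h1.trans (if_neg (by decide))

/-! ### the moved characters -/

/-- the first column -/
theorem exists_col (A : GL (Fin 2) F) : ∃ c : SpecialLinearGroup (Fin 2) F,
    ((SpecialLinearGroup.toGL c)⁻¹ * A).1 1 0 = 0 := by
  have hdet : A.1.det ≠ 0 := by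
    have h := A.isUnit
    rw [Matrix.isUnit_iff_isUnit_det] at h
    exact h.ne_zero
  rw [Matrix.det_fin_two] at hdet
  by_cases h : A.1 0 0 = 0
  · have h1 : A.1 1 0 ≠ 0 := by
      intro h2
      apply hdet
      rw [h, h2]
      ring
    refine ⟨⟨!![0, -(A.1 1 0)⁻¹; A.1 1 0, 0], ?_⟩, ?_⟩
    · rw [Matrix.det_fin_two_of]
      field_simp
      ring
    · show (Matrix.adjugate !![0, -(A.1 1 0)⁻¹; A.1 1 0, 0] * A.1) 1 0 = 0
      rw [Matrix.adjugate_fin_two_of]
      simp [Matrix.mul_apply, Fin.sum_univ_two, h]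
  · refine ⟨⟨!![A.1 0 0, 0; A.1 1 0, (A.1 0 0)⁻¹], ?_⟩, ?_⟩
    · rw [Matrix.det_fin_two_of, mul_inv_cancel₀ h]
      ring
    · show (Matrix.adjugate !![A.1 0 0, 0; A.1 1 0, (A.1 0 0)⁻¹] * A.1) 1 0 = 0
      rw [Matrix.adjugate_fin_two_of]
      simp [Matrix.mul_apply, Fin.sum_univ_two]
      ring

/-- a triangular semilinear map preserves the Borel subgroup -/
theorem tri {D : GL (Fin 2) F} (hD : D.1 1 0 = 0) (σ : F ≃+* F) (x : BB F) :
    ∃ y : BB F, lift (cj D * fld σ) (x : ProjectiveSpecialLinearGroup (Fin 2) F) = y ∧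
      dd F y = Units.map (σ : F →* F) (dd F x) := by
  obtain ⟨s, k, rfl⟩ := exists_ut x
  have hdet : D.1.det ≠ 0 := by
    have h := D.isUnit
    rw [Matrix.isUnit_iff_isUnit_det] at h
    exact h.ne_zero
  rw [Matrix.det_fin_two, hD, mul_zero, sub_zero] at hdet
  have h2 : D.1 1 1 ≠ 0 := right_ne_zero_of_mul hdet
  set s' : Fˣ := Units.map (σ : F →* F) s with hs'
  have hs1 : (s' : F) = σ s := rfl
  have hs2 : ((s'⁻¹ : Fˣ) : F) = σ ((s⁻¹ : Fˣ) : F) := by
    rw [hs', ← map_inv]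
    rfl
  set k' : F := (D.1 0 0 * σ k + D.1 0 1 * σ ((s⁻¹ : Fˣ) : F) - σ s * D.1 0 1) / D.1 1 1 with hk'
  have hk : k' * D.1 1 1 = D.1 0 0 * σ k + D.1 0 1 * σ ((s⁻¹ : Fˣ) : F) - σ s * D.1 0 1 := div_mul_cancel₀ _ h2
  have key : (cj D * fld σ : MulAut (SpecialLinearGroup (Fin 2) F)) (ut s k) = ut s' k' := by
    apply Subtype.ext
    show D.1 * (fld σ (ut s k)).1 * (D⁻¹ : GL (Fin 2) F).1 = (ut s' k').1
    have h3 : D.1 * (fld σ (ut s k)).1 = (ut s' k').1 * D.1 := by
      have h4 : (fld σ (ut s k)).1 = !![σ s, σ k; 0, σ ((s⁻¹ : Fˣ) : F)] := by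
        ext i j
        show (fld σ (ut s k) : Matrix (Fin 2) (Fin 2) F) i j = _
        rw [coe_fld_apply]
        show σ ((ut s k).1 i j) = _
        rw [coe_ut]
        fin_cases i <;> fin_cases j <;> simp
      rw [h4, coe_ut, hs1, hs2]
      have hD' : D.1 = !![D.1 0 0, D.1 0 1; 0, D.1 1 1] := by
        ext i j
        fin_cases i <;> fin_cases j
        · rfl
        · rfl
        · exact hD
        · rfl
      generalize D.1 0 0 = d0 at hD' hk
      generalize D.1 0 1 = d1 at hD' hk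
      generalize D.1 1 1 = d2 at hD' hk
      rw [hD']
      ext i j
      fin_cases i <;> fin_cases j
      · simp [Matrix.mul_apply, Fin.sum_univ_two, mul_comm]
      · simp only [Matrix.mul_apply, Fin.sum_univ_two, Matrix.of_apply, Matrix.cons_val', Matrix.cons_val_zero,
          Matrix.cons_val_one, Fin.zero_eta, Fin.mk_one, Fin.isValue, Matrix.cons_val_fin_one]
        linear_combination -hk
      · simp [Matrix.mul_apply, Fin.sum_univ_two]
      · simp [Matrix.mul_apply, Fin.sum_univ_two, mul_comm]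
    rw [h3, mul_assoc, ← Units.val_mul, mul_inv_cancel, Units.val_one, mul_one]
  refine ⟨⟨pr (ut s' k'), pr_mem_BB.2 (ut_mem _ _)⟩, ?_, ?_⟩
  · show lift (cj D * fld σ) (pr (ut s k)) = pr (ut s' k')
    rw [lift_pr, key]
  · rw [dd_ut, dd_ut, map_pow]

/-- **the character is moved** -/
theorem moved {θ : Fˣ →* ℂˣ} (hθ : Function.Injective θ) {α : MulAut (ProjectiveSpecialLinearGroup (Fin 2) F)}
    {s : Fˣ} (h4 : (s : F) ^ 4 ≠ 1) (h1 : (sg α s) ^ 2 ≠ (s : F) ^ 2) (h2 : (sg α s) ^ 2 * (s : F) ^ 2 ≠ 1) :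
    ∃ x, psi θ (α x) ≠ psi θ x := by
  by_contra hcon
  push Not at hcon
  obtain ⟨A, σ, hA⟩ := exists_rep α
  have hσ := hA.sg_eq
  rw [hσ] at h1 h2
  obtain ⟨c, hc⟩ := exists_col A
  set D : GL (Fin 2) F := (SpecialLinearGroup.toGL c)⁻¹ * A with hD
  have hA' : α = MulAut.conj (pr c) * lift (cj D * fld σ) := by
    have e1 : α = lift (cj A * fld σ) := hA
    have e2 : MulAut.conj (pr c) = lift (cj (SpecialLinearGroup.toGL c)) := by
      have := rep_conj c
      rw [H454.Reg.Two.Rep, map_one, mul_one] at this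
      exact this
    rw [e1, e2, ← map_mul, ← mul_assoc, ← map_mul, hD, mul_inv_cancel_left]
  have hβ : ∀ x, psi θ (lift (cj D * fld σ) x) = psi θ x := by
    intro x
    rw [← hcon x, hA']
    show _ = psi θ (pr c * lift (cj D * fld σ) x * (pr c)⁻¹)
    exact (S0150.indFun_isClassFunction (BB F) _ _ _).symm
  have htw : ∀ x, psi θ (lift (cj D * fld σ) x) =
      indFun (BB F) (fun x => (ll (θ.comp (Units.map (σ : F →* F))) x : ℂ)) x := by
    intro x
    refine ind_tw (BB F) _ _ (lift (cj D * fld σ)) (fun y => ?_) x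
    obtain ⟨z, hz, hz'⟩ := tri hc σ y
    refine ⟨z, hz, ?_⟩
    show ((θ (dd F z) : ℂˣ) : ℂ) = (θ (Units.map (σ : F →* F) (dd F y)) : ℂˣ)
    rw [hz']
  have heq : indFun (BB F) (fun x => (ll θ x : ℂ)) =
      indFun (BB F) (fun x => (ll (θ.comp (Units.map (σ : F →* F))) x : ℂ)) := by
    funext x
    exact (hβ x).symm.trans (htw x)
  refine ind_ne (BB F) (ll θ) (ll (θ.comp (Units.map (σ : F →* F)))) (irr_psi hθ h4) (fun g => ?_) heq
  by_cases hg : g ∈ BB F
  · refine ⟨⟨pr (ut s 0), pr_mem_BB.2 (ut_mem _ _)⟩,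
      ⟨g, hg⟩⁻¹ * ⟨pr (ut s 0), pr_mem_BB.2 (ut_mem _ _)⟩ * ⟨g, hg⟩, rfl, ?_⟩
    have hdd : dd F (⟨g, hg⟩⁻¹ * ⟨pr (ut s 0), pr_mem_BB.2 (ut_mem _ _)⟩ * ⟨g, hg⟩) = s ^ 2 := by
      rw [map_mul, map_mul, map_inv, dd_ut, mul_comm, mul_inv_cancel_left]
    rw [ll_apply, ll_apply, MonoidHom.comp_apply, hdd, dd_ut]
    intro h
    have h3 := hθ h
    rw [map_pow] at h3
    apply h1
    have h5 := congrArg Units.val h3
    exact h5.symm
  · obtain ⟨k, k', h⟩ := pairs hg s
    refine ⟨⟨pr (ut s k), pr_mem_BB.2 (ut_mem _ _)⟩, ⟨pr (ut s⁻¹ k'), pr_mem_BB.2 (ut_mem _ _)⟩, h, ?_⟩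
    rw [ll_apply, ll_apply, MonoidHom.comp_apply, dd_ut, dd_ut]
    intro h
    have h3 := hθ h
    apply h2
    rw [map_pow, map_inv] at h3
    have h5 : (Units.map (σ : F →* F) s) ^ 2 * s ^ 2 = 1 := by
      rw [h3, inv_pow, mul_inv_cancel]
    have h6 := congrArg Units.val h5
    exact h6

end Cfsg.Agent.H916.HT.Own
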