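import Cfsg.Agent.H916.HT.OwnTwo
import Cfsg.Agent.H93.HT.Alt
import Cfsg.Agent.S0252

/-!
# S4933, `PSL₂(q)` in its own characteristic, all `q` (helper916)
-/

set_option autoImplicit false

namespace Cfsg.Agent.H916.HT.Own

open Cfsg Matrix
open Cfsg.Agent.H316.HT

universe u v w

theorem row_of_equiv {p : ℕ} {S : Type v} {T : Type w} [Group S] [Group T] (e : S ≃* T) (h : Row p T) : Row p S := by
  intro A _ _ N _ hN
  obtain ⟨f⟩ := hN
  exact h A N ⟨f.trans e⟩

/-- **`PSL₂(q)` in its own characteristic**, all `q` -/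
theorem row_psl2 {p : ℕ} [Fact p.Prime] {F : Type u} [Field F] [Fintype F] [CharP F p] :
    Row p (ProjectiveSpecialLinearGroup (Fin 2) F) := by
  by_cases hF : Fintype.card F = 4
  · obtain ⟨e⟩ := Cfsg.Agent.S0252.result hF
    exact row_of_equiv e (Cfsg.Agent.H93.HT.row_alt p 5 le_rfl)
  · exact row_psl2_own hF

end Cfsg.Agent.H916.HT.Own
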