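import Cfsg.Agent.H916.HT.OwnB
import Cfsg.Agent.H112.HT.Glue
import Cfsg.Agent.H352.HT.Core
import Cfsg.Agent.H37.HT.Grp
import Cfsg.Agent.H649.Transport
import Cfsg.Agent.H596.Degree
import Cfsg.Agent.Lib.FieldAutCard
import Mathlib

/-!
# S4933, `PSL₂(q)` in its own characteristic (helper916)

`row_psl2_own` : `Row p (PSL₂(F))` for a finite field `F` of characteristic `p`, `|F| ≠ 4`, all `p`.
-/

set_option autoImplicit false
set_option linter.unusedSectionVars false

open scoped ComplexConjugate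

namespace Cfsg.Agent.H916.HT.Own

open Cfsg Matrix
open Cfsg.Agent.ClassicalGeometry.AutPSL.Root
open Cfsg.Agent.ClassicalGeometry.AutPSL.Auto
open Cfsg.Agent.ClassicalGeometry.AutPSL.Main
open Cfsg.Agent.H454.Reg.Two
open Cfsg.Agent.H316.HT

universe u v

variable {F : Type u} [Field F] [Fintype F]

/-- square determinant: inner -/
theorem inner_of_sq {α : MulAut (ProjectiveSpecialLinearGroup (Fin 2) F)} {A : GL (Fin 2) F}
    (h : H454.Reg.Two.Rep α A 1) {d : F} (hd : A.1.det = d ^ 2) :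
    α ∈ (MulAut.conj : ProjectiveSpecialLinearGroup (Fin 2) F →* _).range := by
  have hdet : A.1.det ≠ 0 := by
    have h := A.isUnit
    rw [Matrix.isUnit_iff_isUnit_det] at h
    exact h.ne_zero
  have hd0 : d ≠ 0 := by
    rintro rfl
    apply hdet
    rw [hd]
    simp
  let g : SpecialLinearGroup (Fin 2) F := ⟨d⁻¹ • A.1, by
    rw [Matrix.det_smul, hd, Fintype.card_fin, ← mul_pow, inv_mul_cancel₀ hd0, one_pow]⟩
  have h1 : (A : Matrix (Fin 2) (Fin 2) F) = d • ((SpecialLinearGroup.toGL g : GL (Fin 2) F) : Matrix (Fin 2) (Fin 2) F) := by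
    show A.1 = d • (d⁻¹ • A.1)
    rw [smul_smul, mul_inv_cancel₀ hd0, one_smul]
  have h2 := h.of_smul hd0 h1
  refine ⟨pr g, ?_⟩
  have h3 := rep_conj g
  exact h3.trans h2.symm

/-- an automorphism without field part, a `p`-element modulo inner ones, is inner -/
theorem inner_of_sg {p : ℕ} [hp : Fact p.Prime] [CharP F p] {α : MulAut (ProjectiveSpecialLinearGroup (Fin 2) F)}
    (h : sg α = 1) {k : ℕ} (hk : α ^ p ^ k = 1) :
    α ∈ (MulAut.conj : ProjectiveSpecialLinearGroup (Fin 2) F →* _).range := by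
  obtain ⟨A, σ, hA⟩ := exists_rep α
  have h1 : σ = 1 := hA.sg_eq.symm.trans h
  subst h1
  rcases hp.out.eq_two_or_odd' with h2 | h2
  · subst h2
    obtain ⟨d, hd⟩ := FiniteField.isSquare_of_char_two (ringChar.eq_iff.2 ‹CharP F 2›) A.1.det
    exact inner_of_sq hA (d := d) (by rw [hd, pow_two])
  · have h3 : α ^ 2 ∈ (MulAut.conj : ProjectiveSpecialLinearGroup (Fin 2) F →* _).range := by
      rw [pow_two]
      have h4 := hA.mul hA
      rw [one_mul] at h4
      refine inner_of_sq h4 (d := A.1.det) ?_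
      show (A.1 * (fm 1 A).1).det = _
      rw [Matrix.det_mul, pow_two]
      congr 2
    obtain ⟨m, hm⟩ := h2.pow (n := k)
    have h5 : α = (α ^ 2) ^ (m + 1) := by
      rw [← pow_mul]
      calc α = 1 * α := (one_mul α).symm
        _ = α ^ p ^ k * α := by rw [hk]
        _ = α ^ (2 * (m + 1)) := by
          rw [← pow_succ, hm]
          congr 1
    rw [h5]
    exact Subgroup.pow_mem _ h3 _

/-- an automorphism which centralises the root group has no field part -/
theorem sg_of_fix {β : MulAut (ProjectiveSpecialLinearGroup (Fin 2) F)} (h : ∀ t : F, β (pr (ut 1 t)) = pr (ut 1 t)) :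
    sg β = 1 := by
  obtain ⟨A, σ, hA⟩ := exists_rep β
  rw [hA.sg_eq]
  have hdet : A.1.det ≠ 0 := by
    have h := A.isUnit
    rw [Matrix.isUnit_iff_isUnit_det] at h
    exact h.ne_zero
  rw [Matrix.det_fin_two] at hdet
  have key : ∀ t : F, ∃ c : F, A.1 * !![1, σ t; 0, 1] = c • (!![1, t; 0, 1] * A.1) := by
    intro t
    have h1 := h t
    rw [show β = lift (cj A * fld σ) from hA, lift_pr] at h1
    obtain ⟨c, hc⟩ := exists_smul_of_pr_eq h1.symm
    refine ⟨c, ?_⟩
    have h2 : A.1 * (fld σ (ut 1 t)).1 * (A⁻¹ : GL (Fin 2) F).1 = c • (ut 1 t).1 := hc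
    have h4 : (fld σ (ut 1 t)).1 = !![1, σ t; 0, 1] := by
      ext i j
      show (fld σ (ut 1 t) : Matrix (Fin 2) (Fin 2) F) i j = _
      rw [coe_fld_apply]
      show σ ((ut 1 t).1 i j) = _
      rw [coe_ut]
      fin_cases i <;> fin_cases j <;> simp
    have h5 : (ut 1 t).1 = !![1, t; 0, 1] := by
      rw [coe_ut]
      simp
    rw [h4, h5] at h2
    calc A.1 * !![1, σ t; 0, 1] = A.1 * !![1, σ t; 0, 1] * ((A⁻¹ : GL (Fin 2) F).1 * A.1) := by
          rw [← Units.val_mul, inv_mul_cancel, Units.val_one, mul_one]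
      _ = c • !![1, t; 0, 1] * A.1 := by rw [← mul_assoc, h2]
      _ = c • (!![1, t; 0, 1] * A.1) := Matrix.smul_mul _ _ _
  have hA' : A.1 = !![A.1 0 0, A.1 0 1; A.1 1 0, A.1 1 1] := by
    ext i j
    fin_cases i <;> fin_cases j <;> rfl
  generalize A.1 0 0 = a at hA' hdet
  generalize A.1 0 1 = b at hA' hdet
  generalize A.1 1 0 = c' at hA' hdet
  generalize A.1 1 1 = d at hA' hdet
  have key2 : ∀ t : F, ∃ c : F, a = c * (a + t * c') ∧ a * σ t + b = c * (b + t * d) ∧ c' = c * c' ∧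
      c' * σ t + d = c * d := by
    intro t
    obtain ⟨c, hc⟩ := key t
    rw [hA'] at hc
    refine ⟨c, ?_, ?_, ?_, ?_⟩
    · have := congrFun (congrFun hc 0) 0
      simpa [Matrix.mul_apply, Fin.sum_univ_two] using this
    · have := congrFun (congrFun hc 0) 1
      simpa [Matrix.mul_apply, Fin.sum_univ_two] using this
    · have := congrFun (congrFun hc 1) 0
      simpa [Matrix.mul_apply, Fin.sum_univ_two] using this
    · have := congrFun (congrFun hc 1) 1
      simpa [Matrix.mul_apply, Fin.sum_univ_two] using this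
  have hc0 : c' = 0 := by
    by_contra hne
    obtain ⟨c, -, -, e3, e4⟩ := key2 1
    have hc1 : c = 1 := by
      have : (c - 1) * c' = 0 := by linear_combination -e3
      exact sub_eq_zero.1 ((mul_eq_zero.1 this).resolve_right hne)
    rw [hc1, map_one] at e4
    apply hne
    linear_combination e4
  rw [hc0, mul_zero, sub_zero] at hdet
  have hd0 : d ≠ 0 := right_ne_zero_of_mul hdet
  have ha0 : a ≠ 0 := left_ne_zero_of_mul hdet
  have key3 : ∀ t : F, a * σ t = t * d := by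
    intro t
    obtain ⟨c, -, e2, -, e4⟩ := key2 t
    have hc1 : c = 1 := by
      have : (c - 1) * d = 0 := by
        rw [hc0] at e4
        linear_combination -e4
      exact sub_eq_zero.1 ((mul_eq_zero.1 this).resolve_right hd0)
    rw [hc1] at e2
    linear_combination e2
  have had : a = d := by
    have := key3 1
    rw [map_one, mul_one, one_mul] at this
    exact this
  ext t
  have := key3 t
  rw [had, mul_comm t d] at this
  exact mul_left_cancel₀ hd0 this

/-- the root group is a Sylow subgroup -/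
theorem exists_syl (p : ℕ) [Fact p.Prime] [CharP F p] : ∃ S : Sylow p (ProjectiveSpecialLinearGroup (Fin 2) F),
    ∀ x, x ∈ (S : Subgroup _) ↔ ∃ t : F, x = pr (ut 1 t) := by
  obtain ⟨S, hS⟩ := Cfsg.Agent.ClassicalGeometry.AutPSL.SylowU.exists_sylow (F := F) 2 p
  refine ⟨S, fun x => ?_⟩
  rw [hS]
  constructor
  · rintro ⟨g, hg, rfl⟩
    refine ⟨g.1 0 1, ?_⟩
    congr 1
    apply Subtype.ext
    rw [coe_ut]
    have h := Cfsg.Agent.ClassicalGeometry.AutPSL.SylowU.mem_upper.1 hg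
    have h00 : g.1 0 0 = 1 := h 0 0 le_rfl
    have h11 : g.1 1 1 = 1 := h 1 1 le_rfl
    have h10 : g.1 1 0 = 0 := (h 1 0 (Fin.zero_le _)).trans (if_neg (by decide))
    ext i j
    fin_cases i <;> fin_cases j
    · simpa using h00
    · rfl
    · simpa using h10
    · simpa using h11
  · rintro ⟨t, rfl⟩
    refine ⟨ut 1 t, ?_, rfl⟩
    show ut 1 t ∈ Cfsg.Agent.ClassicalGeometry.AutPSL.SylowU.upper 2 F
    rw [Cfsg.Agent.ClassicalGeometry.AutPSL.SylowU.mem_upper]
    intro i j hij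
    show (ut 1 t).1 i j = _
    rw [coe_ut]
    fin_cases i <;> fin_cases j
    · simp
    · exact absurd hij (by decide)
    · simp
    · simp

/-- the Sylow subgroups are abelian -/
theorem syl_comm {p : ℕ} [Fact p.Prime] [CharP F p] (S : Sylow p (ProjectiveSpecialLinearGroup (Fin 2) F))
    {x y : ProjectiveSpecialLinearGroup (Fin 2) F} (hx : x ∈ (S : Subgroup _)) (hy : y ∈ (S : Subgroup _)) :
    x * y = y * x := by
  obtain ⟨S₀, hS₀⟩ := exists_syl (F := F) p
  obtain ⟨g, hg⟩ := MulAction.exists_smul_eq (ProjectiveSpecialLinearGroup (Fin 2) F) S S₀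
  have h1 : ∀ z ∈ (S : Subgroup _), ∃ t : F, g * z * g⁻¹ = pr (ut 1 t) := by
    intro z hz
    rw [← hS₀, ← hg]
    exact ⟨z, hz, rfl⟩
  obtain ⟨t, ht⟩ := h1 x hx
  obtain ⟨r, hr⟩ := h1 y hy
  have h2 : pr (ut 1 t) * pr (ut 1 r) = pr (ut 1 r) * pr (ut 1 t) := by
    rw [← map_mul, ← map_mul, ut_mul, ut_mul]
    congr 2
    simp [add_comm]
  rw [← ht, ← hr] at h2
  have h3 : g * (x * y) * g⁻¹ = g * (y * x) * g⁻¹ := by
    calc g * (x * y) * g⁻¹ = g * x * g⁻¹ * (g * y * g⁻¹) := by group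
      _ = g * y * g⁻¹ * (g * x * g⁻¹) := h2
      _ = _ := by group
  exact mul_left_cancel (mul_right_cancel h3)

/-- a faithful character of a finite cyclic group -/
theorem exists_faithful (A : Type*) [CommGroup A] [Finite A] [IsCyclic A] : ∃ χ : A →* ℂˣ, Function.Injective χ := by
  obtain ⟨g, hg⟩ := IsCyclic.exists_generator (α := A)
  have hn : Nat.card A ≠ 0 := Nat.card_pos.ne'
  have hz := Complex.isPrimitiveRoot_exp (Nat.card A) hn
  have hu := hz.isUnit hn
  have hz' : IsPrimitiveRoot hu.unit (Nat.card A) := by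
    rw [← IsPrimitiveRoot.coe_units_iff]
    exact hz
  have ho : orderOf g = Nat.card A := orderOf_eq_card_of_forall_mem_zpowers hg
  have ho' : orderOf hu.unit = Nat.card A := hz'.eq_orderOf.symm
  refine ⟨monoidHomOfForallMemZpowers hg (g' := hu.unit) (by rw [ho, ho']), ?_⟩
  rw [injective_iff_map_eq_one]
  intro x hx
  obtain ⟨k, rfl⟩ := Subgroup.mem_zpowers_iff.1 (hg x)
  rw [map_zpow, monoidHomOfForallMemZpowers_apply_gen, ← orderOf_dvd_iff_zpow_eq_one, ho', ← ho] at hx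
  exact orderOf_dvd_iff_zpow_eq_one.1 hx

/-- **`PSL₂(q)` in its own characteristic** -/
theorem row_psl2_own {p : ℕ} [hp : Fact p.Prime] {F : Type u} [Field F] [Fintype F] [CharP F p]
    (hF : Fintype.card F ≠ 4) : Row p (ProjectiveSpecialLinearGroup (Fin 2) F) := by
  classical
  intro A _ _ N _ he hC M hM P a ha hcd
  obtain ⟨e⟩ := he
  have : Finite (ProjectiveSpecialLinearGroup (Fin 2) F) := inferInstanceAs (Finite (_ ⧸ _))
  have : Fintype (ProjectiveSpecialLinearGroup (Fin 2) F) := Fintype.ofFinite _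
  have : IsCyclic (F ≃+* F) := Cfsg.Agent.LieRecognition.FieldSemilinear.isCyclic_ringAut F
  have : Finite (F ≃+* F) := Finite.of_injective (fun σ : F ≃+* F => (σ : F → F)) DFunLike.coe_injective
  obtain ⟨n, hpp, hn⟩ := FiniteField.card F p
  let Φ : A →* (F ≃+* F) := sg.comp (H112.HT.act N e)
  have hΦ : ∀ x, Φ x = sg (H112.HT.act N e x) := fun _ => rfl
  -- the kernel
  have hker : ∀ x ∈ (P : Subgroup A), Φ x = 1 → x ∈ N := by
    intro x hx h
    obtain ⟨k, hk⟩ := P.2 ⟨x, hx⟩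
    have hk' : x ^ p ^ k = 1 := congrArg Subtype.val hk
    rw [← H112.HT.act_mem N e hC]
    exact inner_of_sg (p := p) h (k := k) (by rw [← map_pow, hk', map_one])
  -- the Sylow subgroup of `N`
  obtain ⟨R, hR⟩ := H37.HT.exists_sylow_subgroupOf P N
  obtain ⟨T, hT⟩ : ∃ T : Sylow p (ProjectiveSpecialLinearGroup (Fin 2) F),
      ∀ x : N, e x ∈ (T : Subgroup _) ↔ (x : A) ∈ (P : Subgroup A) := by
    refine ⟨R.comapOfInjective e.symm.toMonoidHom e.symm.injective ?_, fun x => ?_⟩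
    · intro x _
      exact ⟨e x, e.symm_apply_apply x⟩
    · show e.symm (e x) ∈ (R : Subgroup N) ↔ _
      rw [hR, e.symm_apply_apply]
      rfl
  have hab : ∀ x ∈ (P : Subgroup A), x ∈ N → ∀ y ∈ (P : Subgroup A), y ∈ N → x * y = y * x := by
    intro x hx hxN y hy hyN
    have h1 := syl_comm T ((hT ⟨x, hxN⟩).2 hx) ((hT ⟨y, hyN⟩).2 hy)
    rw [← map_mul, ← map_mul] at h1
    exact congrArg Subtype.val (e.injective h1)
  by_cases hPN : (P : Subgroup A) ≤ N
  · -- abelian
    exfalso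
    obtain ⟨φ, hφ⟩ := hcd.2
    have h1 := H596.charDegree_dvd_index φ.2 (⊤ : Subgroup (P : Subgroup A)) fun x _ y _ =>
      Subtype.ext (hab x x.2 (hPN x.2) y y.2 (hPN y.2))
    rw [hφ, Subgroup.index_top, Nat.dvd_one] at h1
    exact absurd h1 (Nat.one_lt_pow ha.ne' hp.out.one_lt).ne'
  -- outer `p`-elements
  obtain ⟨x₀, hx₀, hx₀N⟩ := Set.not_subset.1 hPN
  have hx₀Φ : Φ x₀ ≠ 1 := fun h => hx₀N (hker x₀ hx₀ h)
  have hpn : p ∣ (n : ℕ) := by
    obtain ⟨k, hk⟩ := P.2 ⟨x₀, hx₀⟩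
    have hk' : x₀ ^ p ^ k = 1 := congrArg Subtype.val hk
    have h1 : orderOf (Φ x₀) ∣ p ^ k := orderOf_dvd_of_pow_eq_one (by rw [← map_pow, hk', map_one])
    obtain ⟨j, -, hj⟩ := (Nat.dvd_prime_pow hp.out).1 h1
    have h2 : orderOf (Φ x₀) ∣ n := by
      have h3 := Cfsg.Agent.Lib.FieldAutCard.card_ringAut (F := F) (p := p) (f := (n : ℕ)) n.pos hn
      rw [← h3]
      exact orderOf_dvd_natCard _
    refine (Dvd.dvd.trans ?_ h2)
    rw [hj]
    refine dvd_pow_self p ?_
    rintro rfl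
    rw [pow_zero, orderOf_eq_one_iff] at hj
    exact hx₀Φ hj
  have hn3 : 3 ≤ (n : ℕ) := by
    have h0 : 0 < (n : ℕ) := n.2
    have h1 := Nat.le_of_dvd h0 hpn
    have h2 := hp.out.two_le
    by_contra h3
    have h4 : (n : ℕ) = 2 := by omega
    have h5 : p = 2 := by
      rcases (Nat.dvd_prime Nat.prime_two).1 (h4 ▸ hpn) with h | h
      · omega
      · exact h
    apply hF
    rw [hn, h4, h5]
    norm_num
  obtain ⟨θ, hθ⟩ := exists_faithful Fˣ
  obtain ⟨s₀, hs₀, -⟩ := num hn hn3 hx₀Φ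
  have hirr := irr_psi hθ hs₀
  obtain ⟨χ, hχ⟩ : ∃ χ : IrrCharacter (ProjectiveSpecialLinearGroup (Fin 2) F), χ = ⟨_, hirr⟩ := ⟨_, rfl⟩
  have hχv : ∀ z, (χ : _ → ℂ) z = psi θ z := fun z => by rw [hχ]
  have hχm : χ ∈ principalBlock M _ := by
    rw [hχ]
    exact psi_mem hM hirr
  have hχd : ¬ p ∣ charDegree (χ : ProjectiveSpecialLinearGroup (Fin 2) F → ℂ) := by
    rw [hχ]
    exact psi_degree θ
  refine H352.HT.good_of_orbit hM N P ha hcd hab ?_ ?_ (H649.irrMap e.symm χ) ?_ ?_ ?_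
  · -- cyclic
    obtain ⟨⟨g, hg⟩, hgen⟩ := IsCyclic.exists_generator (α := (P : Subgroup A).map Φ)
    obtain ⟨t, ht, rfl⟩ := hg
    refine ⟨t, ht, fun x hx => ?_⟩
    have h1 := hgen (⟨Φ x, x, hx, rfl⟩ : (P : Subgroup A).map Φ)⁻¹
    rw [← mem_powers_iff_mem_zpowers] at h1
    obtain ⟨k, hk⟩ := h1
    refine ⟨k, hker _ ((P : Subgroup A).mul_mem hx ((P : Subgroup A).pow_mem ht k)) ?_⟩
    have h2 : Φ t ^ k = (Φ x)⁻¹ := congrArg Subtype.val hk
    rw [map_mul, map_pow, h2, mul_inv_cancel]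
  · -- self-centralising
    intro x hx hcx
    apply hker x hx
    obtain ⟨S₀, hS₀⟩ := exists_syl (F := F) p
    obtain ⟨g, hg⟩ := MulAction.exists_smul_eq (ProjectiveSpecialLinearGroup (Fin 2) F) S₀ T
    obtain ⟨G, rfl⟩ := pr_surjective g
    have h1 : sg ((MulAut.conj (pr G))⁻¹ * H112.HT.act N e x * MulAut.conj (pr G)) = 1 := by
      apply sg_of_fix
      intro t
      have h2 : pr G * pr (ut 1 t) * (pr G)⁻¹ ∈ (T : Subgroup _) := by
        rw [← hg]
        exact ⟨pr (ut 1 t), (hS₀ _).2 ⟨t, rfl⟩, rfl⟩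
      obtain ⟨y, hy⟩ := e.surjective (pr G * pr (ut 1 t) * (pr G)⁻¹)
      rw [← hy, hT] at h2
      have h3 : H112.HT.act N e x (e y) = e y := by
        rw [H112.HT.act_apply]
        congr 1
        apply Subtype.ext
        show x * (e.symm (e y) : N) * x⁻¹ = y
        rw [e.symm_apply_apply, hcx y h2 y.2, mul_inv_cancel_right]
      show (MulAut.conj (pr G))⁻¹ (H112.HT.act N e x (pr G * pr (ut 1 t) * (pr G)⁻¹)) = pr (ut 1 t)
      rw [← hy, h3, hy, ← map_inv, MulAut.conj_apply]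
      group
    have h4 : sg (MulAut.conj (pr G)) = 1 := (rep_conj G).sg_eq
    rw [map_mul, map_mul, map_inv, h4, inv_one, one_mul, mul_one] at h1
    exact h1
  · rw [← H649.blkMap_principalBlock e.symm, H649.irrMap_mem_blkMap]
    exact hχm
  · rw [H649.charDegree_irrMap]
    exact hχd
  · intro g
    refine ⟨x₀, hx₀, ?_⟩
    have h1 : Φ (g * x₀ * g⁻¹) ≠ 1 := by
      intro h
      apply hx₀Φ
      rw [map_mul, map_mul, map_inv] at h
      have h2 : Φ x₀ = (Φ g)⁻¹ * (Φ g * Φ x₀ * (Φ g)⁻¹) * Φ g := by group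
      rw [h2, h]
      group
    obtain ⟨s, h4, h5, h6⟩ := num hn hn3 h1
    obtain ⟨z, hz⟩ := moved hθ h4 h5 h6
    refine ⟨e.symm z, e.symm (H112.HT.act N e (g * x₀ * g⁻¹) z), ?_, ?_⟩
    · rw [H112.HT.act_apply, e.symm_apply_apply]
    · show (χ : _ → ℂ) (e (e.symm (H112.HT.act N e (g * x₀ * g⁻¹) z))) ≠ (χ : _ → ℂ) (e (e.symm z))
      rw [e.apply_symm_apply, e.apply_symm_apply, hχv, hχv]
      exact hz

end Cfsg.Agent.H916.HT.Own
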