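import Cfsg.Agent.H681.IP.Sec
import Cfsg.Agent.CharDeep.PowerDegrees

/-!
# S4933: groups of order `3 ^ 6` with large derived subgroup and two commuting nonabelian pairs (helper916)

* `TD.dvd_index` : `p ^ (2 a)` divides `|P|` ⟹ it divides `|P : P'|`;
* `false_of_card` : `|P| = p ^ 6`, `p ^ 3 ≤ |P'|` and two commuting nonabelian pairs: not all degrees are `1` or `p ^ a`.
-/

set_option autoImplicit false

namespace Cfsg.Agent.H916.HT

open Cfsg Subgroup
open Cfsg.Agent.Characters.Core Cfsg.Agent.Characters.Clifford Cfsg.Agent.H681.IP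
open Cfsg.Agent.CharDeep.PowerDegrees Cfsg.Agent.Characters.Linear

variable {p a : ℕ} {P : Type*} [Group P] [Finite P]

/-- the degrees and the order -/
theorem TD.sum_eq (h : TD p a P) : ∃ k : ℕ, Nat.card P = (commutator P).index + k * p ^ (2 * a) ∧
    ((∃ x y : P, x * y ≠ y * x) → a ≠ 0 → p ≠ 1 → k ≠ 0) := by
  classical
  have := finite_irr (G := P)
  have := Fintype.ofFinite (IrrCharacter P)
  have hd : ∀ χ : IrrCharacter P, (χ : P → ℂ) 1 = (charDegree (χ : P → ℂ) : ℂ) := fun χ =>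
    Blocks.Basic.irr_one_eq_charDegree χ.2
  have h2 := sum_sq (G := P)
  simp_rw [hd] at h2
  have h3 : ∑ χ : IrrCharacter P, (charDegree (χ : P → ℂ)) ^ 2 = Nat.card P := by exact_mod_cast h2
  rw [← Finset.sum_filter_add_sum_filter_not Finset.univ (fun χ : IrrCharacter P => (χ : P → ℂ) 1 = 1)] at h3
  have h4 : ∑ χ ∈ Finset.univ.filter (fun χ : IrrCharacter P => (χ : P → ℂ) 1 = 1),
      (charDegree (χ : P → ℂ)) ^ 2 = (commutator P).index := by
    rw [← card_hom_eq_index_commutator P, Nat.card_congr (linearEquiv P), Nat.card_eq_fintype_card,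
      Fintype.card_subtype, Finset.card_eq_sum_ones]
    refine Finset.sum_congr rfl fun χ hχ => ?_
    have h5 : (χ : P → ℂ) 1 = 1 := by simpa using hχ
    rw [hd] at h5
    have h6 : charDegree (χ : P → ℂ) = 1 := by exact_mod_cast h5
    rw [h6, one_pow]
  have h5 : ∑ χ ∈ Finset.univ.filter (fun χ : IrrCharacter P => ¬ (χ : P → ℂ) 1 = 1),
      (charDegree (χ : P → ℂ)) ^ 2 =
      (Finset.univ.filter (fun χ : IrrCharacter P => ¬ (χ : P → ℂ) 1 = 1)).card * p ^ (2 * a) := by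
    rw [Finset.sum_const_nat fun χ hχ => ?_]
    have h5 : ¬ (χ : P → ℂ) 1 = 1 := by simpa using hχ
    rcases h χ with h6 | h6
    · exact absurd (by rw [hd, h6, Nat.cast_one]) h5
    · rw [h6, ← pow_mul, mul_comm a 2]
  refine ⟨_, by rw [← h3, h4, h5], ?_⟩
  rintro ⟨x, y, hxy⟩ ha hp h0
  obtain ⟨χ, hχ⟩ := h.exists_deg hxy
  rw [Finset.card_eq_zero] at h0
  have h6 : χ ∈ Finset.univ.filter (fun χ : IrrCharacter P => ¬ (χ : P → ℂ) 1 = 1) := by
    rw [Finset.mem_filter]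
    refine ⟨Finset.mem_univ _, fun h7 => ?_⟩
    rw [hd, hχ] at h7
    have h8 : p ^ a = 1 := by exact_mod_cast h7
    rcases Nat.pow_eq_one.1 h8 with h9 | h9
    · exact hp h9
    · exact ha h9
  rw [h0] at h6
  exact absurd h6 (Finset.notMem_empty _)

/-- **The criterion.** -/
theorem false_of_card (hp : p.Prime) (hP : Nat.card P = p ^ 6) (hC : p ^ 3 ≤ Nat.card (commutator P)) (h : TD p a P)
    {x₁ y₁ x₂ y₂ : P} (h1 : x₁ * y₁ ≠ y₁ * x₁) (h2 : x₂ * y₂ ≠ y₂ * x₂) (c1 : Commute x₁ x₂) (c2 : Commute x₁ y₂)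
    (c3 : Commute y₁ x₂) (c4 : Commute y₁ y₂) : False := by
  have hpg : IsPGroup p P := IsPGroup.of_card hP
  have h0 : a ≠ 0 := h.ne_zero h1
  by_cases ha : a = 1
  · subst ha
    exact h.false_of_pairs hp hpg h1 h2 c1 c2 c3 c4
  obtain ⟨k, hk, hk0⟩ := TD.sum_eq h
  have hk1 := hk0 ⟨_, _, h1⟩ h0 hp.one_lt.ne'
  have hmul := (commutator P).card_mul_index
  have hi : (commutator P).index ∣ p ^ 6 := hP ▸ (commutator P).index_dvd_card
  obtain ⟨m, hm6, hm⟩ := (Nat.dvd_prime_pow hp).1 hi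
  have hle : p ^ (2 * a) ≤ p ^ 6 := by
    rw [← hP, hk]
    have : 1 * p ^ (2 * a) ≤ k * p ^ (2 * a) := Nat.mul_le_mul_right _ (Nat.one_le_iff_ne_zero.2 hk1)
    omega
  have h2a : 2 * a ≤ 6 := (Nat.pow_le_pow_iff_right hp.one_lt).1 hle
  have hd : p ^ (2 * a) ∣ (commutator P).index := by
    have h3 : p ^ (2 * a) ∣ Nat.card P := by rw [hP]; exact pow_dvd_pow p h2a
    rw [hk] at h3
    exact (Nat.dvd_add_left (Dvd.intro_left k rfl)).1 h3
  have h4 : 4 ≤ m := by
    rw [hm] at hd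
    have h5 := (Nat.pow_dvd_pow_iff_le_right hp.one_lt).1 hd
    omega
  rw [hP, hm] at hmul
  have h6 : Nat.card (commutator P) * p ^ m = p ^ (6 - m) * p ^ m := by
    rw [hmul, ← pow_add]
    congr 1
    omega
  have h7 : Nat.card (commutator P) = p ^ (6 - m) := Nat.eq_of_mul_eq_mul_right (pow_pos hp.pos m) h6
  rw [h7] at hC
  have h8 := (Nat.pow_le_pow_iff_right hp.one_lt).1 hC
  omega

end Cfsg.Agent.H916.HT
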